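import Mathlib
import Cfsg.Agent.H359.Alt.Rows2
import Cfsg.Agent.H359.Alt.NoGrp
import Cfsg.Agent.Solvable.FpfCyclic

/-!
# The row `S₇`: the case of a normal 7-subgroup (TEAM SPEC-ALT)
-/

set_option autoImplicit false

namespace Cfsg.Agent.H359.Alt

open Cfsg Subgroup Cfsg.Agent.H357.Sp Cfsg.Agent.H359 Cfsg.Agent.H359.Ring

/-- the case `K = 1` -/
theorem core_bot {T : Type} [Group T] [Finite T] (hs : Sp T)
    (hord : ∀ x : T, orderOf x ∈ ({1, 2, 3, 4, 5, 6, 7, 10, 12} : Finset ℕ)) (E : Subgroup T)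
    [hEn : E.Normal] (hEp : IsPGroup 7 E) (hEb : E ≠ ⊥) (h12 : ∃ u : T, orderOf u = 12)
    (h5 : ∃ y : T, orderOf y = 5) : False := by
  have : Fact (Nat.Prime 7) := ⟨by norm_num⟩
  obtain ⟨u, hu⟩ := h12
  obtain ⟨y, hy⟩ := h5
  have ho2 : orderOf (u ^ 6) = 2 := by
    rw [orderOf_pow_of_dvd (by norm_num) (by rw [hu]; norm_num), hu]
  set t := u ^ 6 with ht
  obtain ⟨hCpow, hinv, hcomm⟩ := inv_core hs E hEp hEb ho2
  set C := centralizer (E : Set T) with hC
  have hCn : C.Normal := inferInstance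
  have hto : orderOf (t : T ⧸ C) = 2 := by
    rw [orderOf_mk_of_exp C hCpow (by rw [ho2]; decide), ho2]
  have htc : ∀ q : T ⧸ C, Commute (t : T ⧸ C) q := by
    intro q
    obtain ⟨g, rfl⟩ := QuotientGroup.mk_surjective q
    have h1 : ((t * g * t⁻¹ * g⁻¹ : T) : T ⧸ C) = 1 := (QuotientGroup.eq_one_iff _).mpr (hcomm g)
    have h2 : (t : T ⧸ C) * g * ((g : T ⧸ C) * t)⁻¹ = 1 := by
      rw [mul_inv_rev, ← mul_assoc]
      exact h1
    exact mul_inv_eq_one.mp h2
  have ho : ∀ q : T ⧸ C, orderOf q ∈ O12 := by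
    intro q
    have h7 : orderOf q ≠ 7 := by
      intro h7
      have h1 := (htc q).orderOf_mul_eq_mul_orderOf_of_coprime (by rw [hto, h7]; decide)
      obtain ⟨z, hz⟩ := exists_orderOf_lift C ((t : T ⧸ C) * q)
      have h2 := hord z
      rw [hz, h1, hto, h7] at h2
      revert h2
      decide
    obtain ⟨z, hz⟩ := exists_orderOf_lift C q
    have h2 := hord z
    rw [hz] at h2
    generalize orderOf q = n at h2 h7
    simp only [Finset.mem_insert, Finset.mem_singleton] at h2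
    rcases h2 with rfl | rfl | rfl | rfl | rfl | rfl | rfl | rfl | rfl <;> first
      | decide
      | exact absurd rfl h7
  -- unique involution
  have hti : ∀ x : T ⧸ C, orderOf x = 2 → x = (t : T ⧸ C) := by
    intro x hx
    obtain ⟨g, rfl⟩ := QuotientGroup.mk_surjective x
    have hg2 : g ^ 2 ∈ C := by
      rw [← QuotientGroup.eq_one_iff, QuotientGroup.mk_pow, ← hx]
      exact pow_orderOf_eq_one _
    have hg14 : (g ^ 7) ^ 2 = 1 := by rw [← pow_mul, mul_comm, pow_mul]; exact hCpow _ hg2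
    have hx2 : (g : T ⧸ C) ^ 2 = 1 := by rw [← hx]; exact pow_orderOf_eq_one _
    have hx7 : ((g ^ 7 : T) : T ⧸ C) = (g : T ⧸ C) := by
      rw [QuotientGroup.mk_pow, show 7 = 2 * 3 + 1 by norm_num, pow_succ, pow_mul, hx2, one_pow, one_mul]
    have hg1 : g ^ 7 ≠ 1 := by
      intro h1
      rw [h1, QuotientGroup.mk_one] at hx7
      rw [← hx7, orderOf_one] at hx
      omega
    have hgo : orderOf (g ^ 7) = 2 := by
      rcases (Nat.dvd_prime Nat.prime_two).mp (orderOf_dvd_of_pow_eq_one hg14) with h1 | h1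
      · exact absurd (orderOf_eq_one_iff.mp h1) hg1
      · exact h1
    obtain ⟨-, hinv', -⟩ := inv_core hs E hEp hEb hgo
    rw [← hx7, QuotientGroup.eq, hC, mem_centralizer_iff]
    intro e he
    have h1 := hinv e he
    have h2 := hinv' e he
    have h3 : t * e * t⁻¹ = g ^ 7 * e * (g ^ 7)⁻¹ := h1.trans h2.symm
    have h4 : (g ^ 7)⁻¹ * t * e = e * ((g ^ 7)⁻¹ * t) := by
      calc (g ^ 7)⁻¹ * t * e = (g ^ 7)⁻¹ * (t * e * t⁻¹) * t := by group
        _ = (g ^ 7)⁻¹ * (g ^ 7 * e * (g ^ 7)⁻¹) * t := by rw [h3]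
        _ = e * ((g ^ 7)⁻¹ * t) := by group
    exact h4.symm
  -- fixed-point-free action
  have hker : ∀ c ∈ C, (MulAut.conjNormal (H := E)) c = 1 := by
    intro c hc
    ext e
    rw [MulAut.conjNormal_apply, MulAut.one_apply, mul_inv_eq_iff_eq_mul]
    exact (mem_centralizer_iff.mp hc e e.2).symm
  let f : T ⧸ C →* MulAut E := QuotientGroup.lift C (MulAut.conjNormal (H := E)) hker
  have hfpf : ∀ p, (p = 3 ∨ p = 5) → ∀ x : T ⧸ C, orderOf x = p → ∀ v : E, f x v = v → v = 1 := by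
    intro p hp x hx v hv
    by_contra hv1
    obtain ⟨g, rfl⟩ := QuotientGroup.mk_surjective x
    have hgv : g * v * g⁻¹ = v := congrArg Subtype.val hv
    have hgc : Commute g (v : T) := mul_inv_eq_iff_eq_mul.mp hgv
    have hv7 : orderOf (v : T) = 7 := by
      have h1 : (v : T) ^ 7 = 1 := hs.pow_of_isPGroup hEp v.2
      rcases (Nat.dvd_prime (by norm_num)).mp (orderOf_dvd_of_pow_eq_one h1) with h4 | h4
      · exact absurd (Subtype.ext (orderOf_eq_one_iff.mp h4)) hv1
      · exact h4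
    have hgp : g ^ p ∈ C := by
      rw [← QuotientGroup.eq_one_iff, QuotientGroup.mk_pow, ← hx]
      exact pow_orderOf_eq_one _
    have hg7 : (g ^ 7) ^ p = 1 := by rw [← pow_mul, mul_comm, pow_mul]; exact hCpow _ hgp
    have hpp : p.Prime := by rcases hp with rfl | rfl <;> norm_num
    have hgo : orderOf (g ^ 7) = p := by
      rcases (Nat.dvd_prime hpp).mp (orderOf_dvd_of_pow_eq_one hg7) with h1 | h1
      · exfalso
        have h2 := orderOf_eq_one_iff.mp h1
        have h3 : (g : T ⧸ C) ^ 7 = 1 := by rw [← QuotientGroup.mk_pow, h2, QuotientGroup.mk_one]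
        have h4 := orderOf_dvd_of_pow_eq_one h3
        rw [hx] at h4
        rcases hp with rfl | rfl <;> revert h4 <;> norm_num
      · exact h1
    have h5 := (hgc.pow_left 7).orderOf_mul_eq_mul_orderOf_of_coprime
      (by rw [hgo, hv7]; rcases hp with rfl | rfl <;> norm_num)
    have h6 := hord (g ^ 7 * v)
    rw [h5, hgo, hv7] at h6
    rcases hp with rfl | rfl <;> revert h6 <;> decide
  have hc : ∀ p, (p = 3 ∨ p = 5) → ∀ a b : T ⧸ C, orderOf a = p → orderOf b = p → a * b = b * a →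
      b ∈ zpowers a := by
    intro p hp a b ha hb hab
    have hpp : p.Prime := by rcases hp with rfl | rfl <;> norm_num
    have hcl : ∀ x ∈ closure ({a, b} : Set (T ⧸ C)), ∀ y ∈ closure ({a, b} : Set (T ⧸ C)), x * y = y * x := by
      have h1 : ∀ x ∈ ({a, b} : Set (T ⧸ C)), ∀ y ∈ ({a, b} : Set (T ⧸ C)), x * y = y * x := by
        rintro x (rfl | rfl) y (rfl | rfl)
        · rfl
        · exact hab
        · exact hab.symm
        · rfl
      intro x hx y hy
      have := Subgroup.isMulCommutative_closure h1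
      exact congrArg Subtype.val
        (mul_comm' (⟨x, hx⟩ : closure ({a, b} : Set (T ⧸ C))) ⟨y, hy⟩)
    set A := closure ({a, b} : Set (T ⧸ C)) with hA
    have haA : a ∈ A := subset_closure (by simp)
    have hbA : b ∈ A := subset_closure (by simp)
    have hpA : ∀ x ∈ A, x ^ p = 1 := by
      intro x hx
      induction hx using Subgroup.closure_induction with
      | mem x hx =>
        rcases hx with rfl | rfl
        · rw [← ha]; exact pow_orderOf_eq_one _
        · rw [← hb]; exact pow_orderOf_eq_one _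
      | one => exact one_pow _
      | mul x y hx hy h1 h2 =>
        rw [(show Commute x y from hcl x hx y hy).mul_pow, h1, h2, one_mul]
      | inv x hx h1 => rw [inv_pow, h1, inv_one]
    have : Nontrivial E := (nontrivial_iff_ne_bot E).mpr hEb
    have : Group.IsNilpotent E := hEp.isNilpotent
    have hAcyc : IsCyclic A := by
      refine Solvable.FpfCyclic.isCyclic_of_fpf_nilpotent (W := E)
        (fun x y => Subtype.ext (hcl x x.2 y y.2)) (f.comp A.subtype) ?_
      intro x hx v hv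
      refine hfpf p hp x ?_ v hv
      rcases (Nat.dvd_prime hpp).mp (orderOf_dvd_of_pow_eq_one (hpA x x.2)) with h4 | h4
      · exact absurd (Subtype.ext (orderOf_eq_one_iff.mp h4)) hx
      · exact h4
    have hcA : Nat.card A ∣ p := by
      rw [← IsCyclic.exponent_eq_card]
      exact Monoid.exponent_dvd_of_forall_pow_eq_one fun x => Subtype.ext (hpA x x.2)
    have hle : zpowers a ≤ A := by rwa [zpowers_le]
    have h8 : zpowers a = A := Subgroup.eq_of_le_of_card_ge hle (by
      rw [Nat.card_zpowers, ha]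
      exact Nat.le_of_dvd hpp.pos hcA)
    rw [h8]
    exact hbA
  refine no_group ho hti hc (u := (u : T ⧸ C)) (y := (y : T ⧸ C)) ?_ ?_
  · rw [orderOf_mk_of_exp C hCpow (by rw [hu]; decide), hu]
  · rw [orderOf_mk_of_exp C hCpow (by rw [hy]; decide), hy]

theorem zmod7_aux (k i : ℕ) (hk : k < 7) (h3 : k ^ 3 % 7 = 1) (h1 : k ≠ 1) (h0 : 0 < i) (hi : i < 3) :
    ((k : ℕ) : ZMod 7) ^ i ≠ 1 := by
  have h2 : k = 2 ∨ k = 4 := by
    interval_cases k <;> simp_all
  rcases h2 with rfl | rfl <;> interval_cases i <;> decide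

theorem core7S (G : Type) [Group G] [Finite G] (hG : Spec 0 7 G) (K : Subgroup G) [K.Normal]
    (hK : Group.IsNilpotent K) (h49 : K ≠ ⊥ → ¬ 49 ∣ Nat.card G) (hE : pCore 7 (G ⧸ K) ≠ ⊥) :
    False := by
  have : Fact (Nat.Prime 7) := ⟨by norm_num⟩
  have hord : ∀ x : G, orderOf x ∈ ({1, 2, 3, 4, 5, 6, 7, 10, 12} : Finset ℕ) :=
    Spec.mem hG (by norm_num) (by decide +kernel)
  have hs : Sp G := fun x => (by decide : ({1, 2, 3, 4, 5, 6, 7, 10, 12} : Finset ℕ) ⊆ Om) (hord x)
  have hno : ∀ n, n ∉ ({1, 2, 3, 4, 5, 6, 7, 10, 12} : Finset ℕ) → ∀ x : G, orderOf x ≠ n :=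
    fun n hn x hx => hn (hx ▸ hord x)
  obtain ⟨g5, h5⟩ := hG.down 5 (by norm_num) (by decide +kernel)
  obtain ⟨g12, h12⟩ := hG.down 12 (by norm_num) (by decide +kernel)
  obtain ⟨g4, h4⟩ := hG.down 4 (by norm_num) (by decide +kernel)
  obtain ⟨g3, h3⟩ := hG.down 3 (by norm_num) (by decide +kernel)
  have hEn : (pCore 7 (G ⧸ K)).Normal := Lib.Cores.pCore_normal 7
  have hEp : IsPGroup 7 (pCore 7 (G ⧸ K)) := Lib.Cores.pCore_isPGroup 7
  have hordq : ∀ q : G ⧸ K, orderOf q ∈ ({1, 2, 3, 4, 5, 6, 7, 10, 12} : Finset ℕ) := by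
    intro q
    obtain ⟨x, hx⟩ := exists_orderOf_lift K q
    rw [← hx]
    exact hord x
  rcases eq_or_ne K ⊥ with hKb | hKb
  · have hinj : Function.Injective (QuotientGroup.mk' K) := by
      rw [← MonoidHom.ker_eq_bot_iff, QuotientGroup.ker_mk', hKb]
    exact core_bot (hs.quot K) hordq _ hEp hE ⟨QuotientGroup.mk' K g12, by rw [orderOf_injective _ hinj, h12]⟩
      ⟨QuotientGroup.mk' K g5, by rw [orderOf_injective _ hinj, h5]⟩
  · obtain ⟨hE7, a, ha⟩ := core_ne hs K (h49 hKb) hE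
    have m4 := pow_mem_of_card_dvd K ha g4 (by rw [h4]; decide)
    have m5 := pow_mem_of_card_dvd K ha g5 (by rw [h5]; decide)
    rw [h4] at m4
    rw [h5] at m5
    norm_num at m4 m5
    have ho2 : orderOf (g4 ^ 2) = 2 := by
      rw [orderOf_pow_of_dvd (by norm_num) (by rw [h4]; norm_num), h4]
    have o10 := exists_mul_of_nilp K hK m4 m5 (by rw [ho2, h5]; decide)
    rw [ho2, h5] at o10
    have hK3 : ¬ 3 ∣ Nat.card K := by
      intro hd
      have : Fact (Nat.Prime 3) := ⟨by norm_num⟩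
      obtain ⟨z, hz⟩ := exists_prime_orderOf_dvd_card' (G := K) 3 hd
      have hz' : orderOf (z : G) = 3 := by rw [Subgroup.orderOf_coe, hz]
      have o30 := exists_mul_of_nilp K hK (K.mul_mem m4 m5) z.2 (by rw [o10, hz']; decide)
      exact hno 30 (by decide) _ (by rw [o30, o10, hz'])
    -- an element of order 3 in the quotient
    have ht3 : orderOf (g3 : G ⧸ K) = 3 := by
      have : Fact (Nat.Prime 3) := ⟨by norm_num⟩
      refine orderOf_eq_prime ?_ ?_
      · rw [← QuotientGroup.mk_pow, ← h3, pow_orderOf_eq_one, QuotientGroup.mk_one]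
      · intro h1
        apply hK3
        have h2 : g3 ∈ K := (QuotientGroup.eq_one_iff _).mp h1
        rw [← h3, ← Subgroup.orderOf_mk g3 h2]
        exact _root_.orderOf_dvd_natCard _
    obtain ⟨z, hz, hzo⟩ : ∃ x ∈ pCore 7 (G ⧸ K), orderOf x = 7 := exists_orderOf_seven (by rw [hE7])
    set τ : G ⧸ K := (g3 : G ⧸ K) with hτ
    have hzE : zpowers z = pCore 7 (G ⧸ K) := by
      refine Subgroup.eq_of_le_of_card_ge (by rwa [zpowers_le]) ?_
      rw [Nat.card_zpowers, hzo, hE7]
    have hcz : τ * z * τ⁻¹ ∈ zpowers z := by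
      rw [hzE]
      exact hEn.conj_mem z hz τ
    have hfin : IsOfFinOrder z := isOfFinOrder_of_finite z
    obtain ⟨k0, hk0⟩ := hfin.mem_powers_iff_mem_zpowers.mpr hcz
    have hk : τ * z * τ⁻¹ = z ^ (k0 % 7) := by
      rw [← hzo, pow_mod_orderOf]
      exact hk0.symm
    set k := k0 % 7 with hkd
    have hk7 : k < 7 := Nat.mod_lt _ (by norm_num)
    have hpw : ∀ j : ℕ, τ ^ j * z * (τ ^ j)⁻¹ = z ^ (k ^ j) := by
      intro j
      induction j with
      | zero => simp
      | succ j ih =>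
        rw [pow_succ']
        have e : τ * τ ^ j * z * (τ * τ ^ j)⁻¹ = τ * (τ ^ j * z * (τ ^ j)⁻¹) * τ⁻¹ := by group
        rw [e, ih, ← conj_pow, hk, ← pow_mul, pow_succ']
    have hk3 : k ^ 3 % 7 = 1 := by
      have h1 := hpw 3
      have h2 : τ ^ 3 = 1 := by rw [← ht3]; exact pow_orderOf_eq_one _
      rw [h2, one_mul, inv_one, mul_one] at h1
      have h4 : z ^ 1 = z ^ (k ^ 3) := by rw [pow_one]; exact h1
      rw [pow_eq_pow_iff_modEq, hzo] at h4
      exact h4.symm
    have hk1 : k ≠ 1 := by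
      intro h1
      rw [h1, pow_one] at hk
      have h2 : Commute τ z := mul_inv_eq_iff_eq_mul.mp hk
      have h3 := h2.orderOf_mul_eq_mul_orderOf_of_coprime (by rw [ht3, hzo]; norm_num)
      have h4 := hordq (τ * z)
      rw [h3, ht3, hzo] at h4
      revert h4
      decide
    have hK5 : 5 ∣ Nat.card K := by
      rw [← h5, ← Subgroup.orderOf_mk g5 m5]
      exact _root_.orderOf_dvd_natCard _
    obtain ⟨W, iW1, iW2, iW3, ρ, hW, hρ⟩ := exists_modG K hK (r := 5) (by norm_num) hK5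
    have hn3 := hρ τ (by
      rw [ht3]
      rintro ⟨x, hx⟩
      exact hno 15 (by decide) x hx)
    have hn7 := hρ z (by
      rw [hzo]
      rintro ⟨x, hx⟩
      exact hno 35 (by decide) x hx)
    rw [ht3] at hn3
    rw [hzo] at hn7
    have hz1 : ρ z = 1 := by
      refine frob_cyc ρ (t := τ) (k := k) (n := 3) (p := 7) (by rw [← hzo]; exact pow_orderOf_eq_one _) hk
        (by norm_num) ?_ hn3 (fun a ha => reg_of_coprime hW (by norm_num) a ha)
      exact fun i hi0 hi3 => zmod7_aux k i hk7 hk3 hk1 hi0 hi3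
    have h8 : nrm ρ z 7 = ((7 : ℕ) : AddMonoid.End W) := by
      simp [Ring.nrm, map_pow, hz1]
    rw [h8] at hn7
    have h9 := reg_of_coprime (m := 7) hW (by norm_num) 1 (by rw [mul_one, hn7])
    obtain ⟨x, hx⟩ := exists_ne (0 : W)
    exact hx (DFunLike.congr_fun h9 x)

theorem row7S : Cfsg.Agent.H357.Sp.Row 0 7 7 := row7S_of core7S

end Cfsg.Agent.H359.Alt
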